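import Cfsg.Agent.H90.Brodkey

set_option autoImplicit false
open Pointwise

namespace Cfsg.Agent.H90

variable {G : Type*} [Group G] [Finite G] {p : ℕ} [hp : Fact p.Prime]

/-- With fewer than `p²` Sylow subgroups, one meets another in index `1` or `p`. -/
theorem relIndex_sylow_of_card_lt_sq (hn : Nat.card (Sylow p G) < p ^ 2) (P Q : Sylow p G) :
    (Q : Subgroup G).relIndex P = 1 ∨ (Q : Subgroup G).relIndex P = p := by
  have h1 : MulAction.stabilizer (P : Subgroup G) Q = (Q : Subgroup G).subgroupOf P := by
    ext ⟨x, hx⟩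
    simp only [MulAction.mem_stabilizer_iff, Subgroup.mem_subgroupOf, Subgroup.smul_def,
      Sylow.smul_eq_iff_mem_normalizer]
    constructor
    · intro h
      have := (P.isPGroup'.inf_normalizer_sylow Q).le ⟨hx, h⟩
      exact this.2
    · exact fun h => Subgroup.le_normalizer h
  obtain ⟨k, hk⟩ := P.isPGroup'.index ((Q : Subgroup G).subgroupOf P)
  have h2 : ((Q : Subgroup G).subgroupOf P).index < p ^ 2 := by
    rw [← h1, MulAction.index_stabilizer, ← Nat.card_coe_set_eq]
    exact lt_of_le_of_lt (Nat.card_le_card_of_injective _ Subtype.val_injective) hn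
  rw [hk] at h2
  have : k < 2 := (Nat.pow_lt_pow_iff_right hp.out.one_lt).1 h2
  rw [Subgroup.relIndex, hk]
  interval_cases k <;> simp

/-- A core-free group with fewer than `p²` Sylow `p`-subgroups has them of order at most `p`. -/
theorem card_sylow_le_of_card_lt_sq (hn : Nat.card (Sylow p G) < p ^ 2)
    (hO : Cfsg.pCore p G = ⊥) (P : Sylow p G) : Nat.card P = 1 ∨ Nat.card P = p := by
  have hab : ∀ P : Sylow p G, IsMulCommutative P := fun P => ⟨⟨fun x y => by
    have hmem : ∀ Q : Sylow p G, ((x * y * x⁻¹ * y⁻¹ : (P : Subgroup G)) : G) ∈ (Q : Subgroup G) := by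
      intro Q
      obtain h | h := relIndex_sylow_of_card_lt_sq hn P Q
      · exact Subgroup.relIndex_eq_one.1 h (x * y * x⁻¹ * y⁻¹).2
      · rw [Subgroup.relIndex] at h
        set D := (Q : Subgroup G).subgroupOf P
        have hD : D.Normal := by
          apply Subgroup.normal_of_index_eq_minFac_card
          obtain ⟨k, hk⟩ := IsPGroup.iff_card.1 P.isPGroup'
          have hk0 : k ≠ 0 := by
            rintro rfl
            have := D.index_dvd_card
            rw [h, hk, pow_zero, Nat.dvd_one] at this
            exact hp.out.ne_one this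
          rw [h, hk, Nat.pow_minFac hk0, hp.out.minFac_eq]
        haveI : IsCyclic ((P : Subgroup G) ⧸ D) := isCyclic_of_prime_card (p := p) h
        let _ := IsCyclic.commGroup (α := (P : Subgroup G) ⧸ D)
        change (x * y * x⁻¹ * y⁻¹) ∈ D
        rw [← QuotientGroup.eq_one_iff]
        simp only [QuotientGroup.mk_mul, QuotientGroup.mk_inv]
        rw [mul_comm (x : (P : Subgroup G) ⧸ D) y]
        group
    have := iInf_sylow_le_pCore (G := G) (p := p) (Subgroup.mem_iInf.2 hmem)
    rw [hO, Subgroup.mem_bot] at this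
    have h' : x * y * x⁻¹ * y⁻¹ = 1 := by exact_mod_cast this
    exact commutatorElement_eq_one_iff_mul_comm.1 h'⟩⟩
  obtain ⟨A, B, hAB⟩ := brodkey_exists hab
  rw [hO, le_bot_iff] at hAB
  have hA : Nat.card A = 1 ∨ Nat.card A = p := by
    have := relIndex_sylow_of_card_lt_sq hn A B
    rwa [← Subgroup.inf_relIndex_right, inf_comm, hAB, Subgroup.relIndex_bot_left] at this
  rwa [P.card_eq_multiplicity, ← A.card_eq_multiplicity]

/-- In a simple group which is not a `p`-group the `p`-core is trivial. -/
theorem pCore_eq_bot_of_simple [IsSimpleGroup G] (hG : ¬ IsPGroup p G) : Cfsg.pCore p G = ⊥ := by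
  obtain ⟨P⟩ := Sylow.nonempty (p := p) (G := G)
  haveI : (Cfsg.pCore p G).Normal := Subgroup.sSup_normal _ (fun _ h => h.1)
  refine (IsSimpleGroup.eq_bot_or_eq_top_of_normal _ ‹_›).resolve_right ?_
  intro h
  exact hG ((P.isPGroup'.to_le (pCore_le_sylow P)).of_equiv
    ((MulEquiv.subgroupCongr h).trans Subgroup.topEquiv))

end Cfsg.Agent.H90
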