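import Mathlib

set_option autoImplicit false

namespace Cfsg.Agent.H90

/-- Every subgroup of a finite nilpotent group is subnormal. -/
theorem isSubnormal_of_isNilpotent {P : Type*} [Group P] [Finite P] [Group.IsNilpotent P]
    (H : Subgroup P) : H.IsSubnormal := by
  induction H using WellFoundedGT.induction with
  | _ H ih =>
    rcases eq_or_ne H ⊤ with rfl | hne
    · exact Subgroup.IsSubnormal.top
    · have hlt := normalizerCondition_of_isNilpotent (G := P) H hne.lt_top
      exact Subgroup.IsSubnormal.step H _ hlt.le (ih _ hlt) Subgroup.normal_in_normalizer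

/-- The semidihedral group of order 16 in normal form. -/
structure SemiDih where
  /-- exponent of the generator of order 8 -/
  k : ZMod 8
  /-- whether the field automorphism occurs -/
  e : Bool
deriving DecidableEq, Fintype

/-- The twist of the semidihedral group. -/
def sdTwist (e : Bool) : ZMod 8 := if e then 3 else 1

/-- Multiplication. -/
instance semiDihMul : Mul SemiDih := ⟨fun a b => ⟨a.k + sdTwist a.e * b.k, xor a.e b.e⟩⟩
/-- The identity. -/
instance semiDihOne : One SemiDih := ⟨⟨0, false⟩⟩
/-- Inverses. -/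
instance semiDihInv : Inv SemiDih := ⟨fun a => ⟨-(sdTwist a.e * a.k), a.e⟩⟩

/-- The group structure. -/
instance semiDihGroup : Group SemiDih :=
  Group.ofLeftAxioms (by decide +kernel) (by decide +kernel) (by decide +kernel)

/-- Multiplication by `1 + i` on `F₉`. -/
def sdRot (v : ZMod 3 × ZMod 3) : ZMod 3 × ZMod 3 := (v.1 - v.2, v.1 + v.2)

/-- The semilinear action on `F₉`. -/
def sdAct (h : SemiDih) (v : ZMod 3 × ZMod 3) : ZMod 3 × ZMod 3 :=
  sdRot^[h.k.val] (if h.e then (v.1, -v.2) else v)

/-- The action is an action. -/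
theorem sdAct_mul : ∀ (g h : SemiDih) (v : ZMod 3 × ZMod 3), sdAct (g * h) v = sdAct g (sdAct h v) := by
  decide +kernel

/-- The identity acts trivially. -/
theorem sdAct_one : ∀ v : ZMod 3 × ZMod 3, sdAct 1 v = v := by decide +kernel

/-- The action is additive. -/
theorem sdAct_add : ∀ (h : SemiDih) (v w : ZMod 3 × ZMod 3),
    sdAct h (v + w) = sdAct h v + sdAct h w := by decide +kernel

/-- The action as automorphisms. -/
def sdHom : SemiDih →* MulAut (Multiplicative (ZMod 3 × ZMod 3)) where
  toFun h :=
    { toFun := fun v => Multiplicative.ofAdd (sdAct h v.toAdd)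
      invFun := fun v => Multiplicative.ofAdd (sdAct h⁻¹ v.toAdd)
      left_inv := fun v => by
        simp only [toAdd_ofAdd, ← sdAct_mul, inv_mul_cancel, sdAct_one, ofAdd_toAdd]
      right_inv := fun v => by
        simp only [toAdd_ofAdd, ← sdAct_mul, mul_inv_cancel, sdAct_one, ofAdd_toAdd]
      map_mul' := fun v w => congrArg Multiplicative.ofAdd (sdAct_add h v.toAdd w.toAdd) }
  map_one' := by ext v <;> simp [sdAct_one]
  map_mul' g h := by ext v <;> simp [sdAct_mul]

/-- Every class has a representative commuting with the reflection or lying in the complement. -/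
theorem sd_classes : ∀ (v : ZMod 3 × ZMod 3) (h : SemiDih), ∃ (w : ZMod 3 × ZMod 3) (k : SemiDih),
    (w + sdAct k v - sdAct (k * h * k⁻¹) w = 0) ∨
      ((k * h * k⁻¹) * ⟨0, true⟩ = ⟨0, true⟩ * (k * h * k⁻¹) ∧
        sdAct ⟨0, true⟩ (w + sdAct k v - sdAct (k * h * k⁻¹) w) =
          w + sdAct k v - sdAct (k * h * k⁻¹) w) := by
  decide +kernel

end Cfsg.Agent.H90
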